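import Mathlib
import Cfsg.Agent.Inv.Basic

/-! Bender's theorem on TI-subgroups inverted by an involution: the basic structure. -/

set_option autoImplicit false
set_option linter.unusedSectionVars false

namespace Cfsg.Agent.RankOne.BTI

open Subgroup Cfsg.Agent.Inv

variable {G : Type*} [Group G]

/-- The standing hypothesis. -/
structure Hyp (M : Subgroup G) (z : G) : Prop where
  ne : M ≠ ⊥
  ti : ∀ g x : G, x ∈ M → x ≠ 1 → g * x * g⁻¹ ∈ M → g ∈ normalizer (M : Set G)
  z2 : orderOf z = 2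
  zN : z ∈ normalizer (M : Set G)
  fac : ∀ n ∈ normalizer (M : Set G), ∃ x ∈ M, ∃ c : G, c * z = z * c ∧ n = x * c
  odd : ∀ x ∈ M, x ≠ 1 → ∀ y : G, y * x = x * y → y * y = 1 → y = 1
  nn : ¬ M.Normal
  big : M.index < Nat.card {g : G // orderOf g = 2}

theorem conj_mem {M : Subgroup G} {n x : G} (hn : n ∈ normalizer (M : Set G)) (hx : x ∈ M) :
    n * x * n⁻¹ ∈ M := (mem_normalizer_iff.1 hn x).1 hx

theorem conj_mem' {M : Subgroup G} {n x : G} (hn : n ∈ normalizer (M : Set G)) (hx : x ∈ M) :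
    n⁻¹ * x * n ∈ M := by simpa using conj_mem (inv_mem hn) hx

variable [Finite G] {M : Subgroup G} {z : G}

namespace Hyp

variable (h : Hyp M z)
include h

theorem zz : z * z = 1 := mul_self_of_orderOf_two h.z2

theorem z_inv : z⁻¹ = z := inv_of_orderOf_two h.z2

theorem z_ne : z ≠ 1 := ne_one_of_orderOf_two h.z2

theorem exists_ne : ∃ x ∈ M, x ≠ 1 := by
  obtain ⟨⟨x, hx⟩, h1⟩ := ne_bot_iff_exists_ne_one.1 h.ne
  exact ⟨x, hx, fun e => h1 (Subtype.ext e)⟩

theorem exists_not_mem : ∃ g : G, g ∉ normalizer (M : Set G) := by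
  by_contra hc
  push Not at hc
  exact h.nn (normalizer_eq_top_iff.1 (eq_top_iff.2 fun g _ => hc g))

theorem sq_eq_one {x : G} (hx : x ∈ M) (h2 : x * x = 1) : x = 1 := by
  by_contra h1
  exact h1 (h.odd x hx h1 x rfl h2)

theorem odd_card : Odd (Nat.card M) := by
  by_contra hc
  obtain ⟨t, ht, ht2⟩ := exists_involution_of_even (Nat.not_odd_iff_even.1 hc)
  exact ne_one_of_orderOf_two ht2 (h.sq_eq_one ht (mul_self_of_orderOf_two ht2))

theorem three_le_card : 3 ≤ Nat.card M := by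
  have h1 := (one_lt_card_iff_ne_bot M).2 h.ne
  obtain ⟨k, hk⟩ := h.odd_card
  omega

theorem mem_of_sq_mem {y : G} (hy : y * y ∈ M) (ho : Odd (orderOf y)) : y ∈ M := by
  obtain ⟨k, hk⟩ := ho
  have : y = (y * y) ^ (k + 1) := by
    rw [← pow_two, ← pow_mul, show 2 * (k + 1) = orderOf y + 1 by omega, pow_succ,
      pow_orderOf_eq_one, one_mul]
  rw [this]
  exact pow_mem hy _

theorem odd_orderOf {x : G} (hx : x ∈ M) : Odd (orderOf x) :=
  h.odd_card.of_dvd_nat (M.orderOf_dvd_natCard hx)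

theorem exists_sqrt {x : G} (hx : x ∈ M) : ∃ y ∈ M, y * y = x := by
  obtain ⟨k, hk⟩ := h.odd_orderOf hx
  refine ⟨x ^ (k + 1), pow_mem hx _, ?_⟩
  rw [← pow_add, show k + 1 + (k + 1) = orderOf x + 1 by omega, pow_succ, pow_orderOf_eq_one,
    one_mul]

/-- involutions of the normalizer invert `M` -/
theorem inv_of_mem {u x : G} (hu : u ∈ normalizer (M : Set G)) (h2 : u * u = 1) (h1 : u ≠ 1)
    (hx : x ∈ M) : u * x * u = x⁻¹ := by
  have hu' : u⁻¹ = u := inv_eq_of_mul_eq_one_right h2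
  let φ : M →* M := MonoidHom.mk' (fun x => ⟨u * x * u⁻¹, conj_mem hu x.2⟩)
    (fun a b => Subtype.ext (by simp [mul_assoc]))
  have hφ : MonoidHom.FixedPointFree φ := by
    intro y hy
    by_contra hy1
    have e : u * y * u⁻¹ = y := congrArg Subtype.val hy
    exact h1 (h.odd y y.2 (fun e => hy1 (Subtype.ext e)) u (mul_inv_eq_iff_eq_mul.1 e) h2)
  have hi : Function.Involutive φ := fun y => Subtype.ext (by
    change u * (u * y * u⁻¹) * u⁻¹ = y
    rw [hu']
    calc u * (u * y * u) * u = (u * u) * y * (u * u) := by group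
      _ = y := by rw [h2]; simp)
  have := congrFun (hφ.coe_eq_inv_of_involutive hi) ⟨x, hx⟩
  have e : u * x * u⁻¹ = x⁻¹ := congrArg Subtype.val this
  rwa [hu'] at e

theorem z_conj {x : G} (hx : x ∈ M) : z * x * z = x⁻¹ := h.inv_of_mem h.zN h.zz h.z_ne hx

theorem z_mul {x : G} (hx : x ∈ M) : z * x = x⁻¹ * z := by
  rw [← h.z_conj hx, mul_assoc, h.zz, mul_one]

theorem comm {x y : G} (hx : x ∈ M) (hy : y ∈ M) : x * y = y * x := by
  have h1 := h.z_conj (mul_mem hx hy)
  have h2 : z * (x * y) * z = (z * x * z) * (z * y * z) := by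
    calc z * (x * y) * z = z * x * (z * z) * y * z := by rw [h.zz]; group
      _ = _ := by group
  rw [h2, h.z_conj hx, h.z_conj hy, ← mul_inv_rev, inv_inj] at h1
  exact h1.symm

theorem z_not_mem : z ∉ M := fun hz => h.z_ne (h.sq_eq_one hz h.zz)

theorem eq_one_of_comm_z {x : G} (hx : x ∈ M) (hc : x * z = z * x) : x = 1 := by
  by_contra h1
  exact h.z_ne (h.odd x hx h1 z hc.symm h.zz)

theorem mul_z_sq {x : G} (hx : x ∈ M) : x * z * (x * z) = 1 := by
  rw [mul_assoc, ← mul_assoc z, h.z_mul hx, mul_assoc, h.zz]; simp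

theorem mul_z_ne {x : G} (hx : x ∈ M) : x * z ≠ 1 := fun e =>
  h.z_not_mem (by rw [eq_inv_of_mul_eq_one_right e]; exact inv_mem hx)

/-- the involutions of the normalizer lie in `M z` -/
theorem mul_z_mem {u : G} (hu : u ∈ normalizer (M : Set G)) (h2 : u * u = 1) (h1 : u ≠ 1) :
    u * z ∈ M := by
  obtain ⟨x, hx, c, hc, e⟩ := h.fac (u * z) (mul_mem hu h.zN)
  have hcomm : ∀ y ∈ M, u * z * y = y * (u * z) := fun y hy => by
    have e1 := h.inv_of_mem hu h2 h1 (inv_mem hy)
    rw [inv_inv] at e1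
    calc u * z * y = u * y⁻¹ * z := by rw [mul_assoc, h.z_mul hy, mul_assoc]
      _ = (u * y⁻¹ * u) * (u * z) := by
        calc u * y⁻¹ * z = u * y⁻¹ * (u * u) * z := by rw [h2, mul_one]
          _ = _ := by group
      _ = _ := by rw [e1]
  have hc' : c = x⁻¹ * (u * z) := by rw [e]; group
  have hcc : c * c = 1 := by
    have e1 : z * c * z = c := by rw [← hc, mul_assoc, h.zz, mul_one]
    have e2 : z * c * z = x * (z * u) := by
      rw [hc']
      calc z * (x⁻¹ * (u * z)) * z = z * x⁻¹ * u * (z * z) := by group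
        _ = _ := by rw [h.zz, mul_one, h.z_mul (inv_mem hx), inv_inv, mul_assoc]
    calc c * c = x⁻¹ * (u * z) * (x * (z * u)) := by rw [← hc', ← e2, e1]
      _ = x⁻¹ * (u * z * x) * (z * u) := by group
      _ = u * (z * z) * u := by rw [hcomm x hx]; group
      _ = 1 := by rw [h.zz, mul_one, h2]
  obtain ⟨y, hy, hy1⟩ := h.exists_ne
  have : c = 1 := h.odd y hy hy1 c (by
    rw [hc', mul_assoc, hcomm y hy, ← mul_assoc, h.comm (inv_mem hx) hy, mul_assoc]) hcc
  rw [e, this, mul_one]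
  exact hx

theorem exists_eq_mul_z {u : G} (hu : u ∈ normalizer (M : Set G)) (h2 : u * u = 1) (h1 : u ≠ 1) :
    ∃ x ∈ M, u = x * z :=
  ⟨u * z, h.mul_z_mem hu h2 h1, by rw [mul_assoc, h.zz, mul_one]⟩

theorem exists_eq_conj_z {u : G} (hu : u ∈ normalizer (M : Set G)) (h2 : u * u = 1)
    (h1 : u ≠ 1) : ∃ y ∈ M, u = y * z * y⁻¹ := by
  obtain ⟨x, hx, rfl⟩ := h.exists_eq_mul_z hu h2 h1
  obtain ⟨y, hy, rfl⟩ := h.exists_sqrt hx
  exact ⟨y, hy, by rw [mul_assoc y z, h.z_mul (inv_mem hy), inv_inv, mul_assoc]⟩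

/-- a coset of `M` outside the normalizer has at most one involution -/
theorem uniq {u x : G} (hu : u ∉ normalizer (M : Set G)) (h2 : u * u = 1) (hx : x ∈ M)
    (hxu : x * u * (x * u) = 1) : x = 1 := by
  by_contra h1
  refine hu (h.ti u x hx h1 ?_)
  rw [inv_eq_of_mul_eq_one_right h2, show u * x * u = x⁻¹ from
    eq_inv_of_mul_eq_one_right (by rw [← hxu]; group)]
  exact inv_mem hx

theorem uniq' {g x y : G} (hg : g ∉ normalizer (M : Set G)) (hx : x ∈ M) (hy : y ∈ M)
    (h1 : x * g * (x * g) = 1) (h2 : y * g * (y * g) = 1) : x = y := by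
  have := h.uniq (u := y * g) (x := x * y⁻¹)
    (fun hm => hg ((mul_mem_cancel_left (le_normalizer hy)).1 hm)) h2 (mul_mem hx (inv_mem hy))
    (by rw [← h1]; group)
  exact mul_inv_eq_one.1 this

/-- the involutions in and outside the normalizer -/
theorem card_inv_split : Nat.card {g : G // orderOf g = 2} =
    Nat.card M + Nat.card {g : G // g * g = 1 ∧ g ∉ normalizer (M : Set G)} := by
  rw [← Nat.card_sum]
  symm
  refine Nat.card_congr (Equiv.ofBijective (fun p => match p with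
    | Sum.inl x => ⟨x * z, orderOf_two_of_mul_self (h.mul_z_sq x.2) (h.mul_z_ne x.2)⟩
    | Sum.inr u => ⟨u.1, orderOf_two_of_mul_self u.2.1 fun e => u.2.2 (by rw [e]; exact one_mem _)⟩) ⟨?_, ?_⟩)
  · rintro (x | u) (y | v) e
    · exact congrArg Sum.inl (Subtype.ext (mul_right_cancel (congrArg Subtype.val e)))
    · have e' : (x : G) * z = v.1 := congrArg Subtype.val e
      exact absurd (e' ▸ mul_mem (le_normalizer x.2) h.zN) v.2.2
    · have e' : u.1 = (y : G) * z := congrArg Subtype.val e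
      exact absurd (e' ▸ mul_mem (le_normalizer y.2) h.zN) u.2.2
    · have e' : u.1 = v.1 := congrArg (fun w : {g : G // orderOf g = 2} => w.1) e
      exact congrArg Sum.inr (Subtype.ext e')
  · rintro ⟨u, hu⟩
    by_cases hN : u ∈ normalizer (M : Set G)
    · obtain ⟨x, hx, rfl⟩ := h.exists_eq_mul_z hN (mul_self_of_orderOf_two hu)
        (ne_one_of_orderOf_two hu)
      exact ⟨Sum.inl ⟨x, hx⟩, rfl⟩
    · exact ⟨Sum.inr ⟨u, mul_self_of_orderOf_two hu, hN⟩, rfl⟩

/-- every coset of `M` outside the normalizer contains an involution -/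
theorem exists_inv {g : G} (hg : g ∉ normalizer (M : Set G)) :
    ∃ x ∈ M, x * g * (x * g) = 1 := by
  by_contra hc
  push Not at hc
  let f : M × (M ⊕ {g : G // g * g = 1 ∧ g ∉ normalizer (M : Set G)}) → G := fun p =>
    match p with
    | (x, Sum.inl y) => x * g * y
    | (x, Sum.inr u) => x * u.1
  have key : ∀ (x y x' : M) (u : {g : G // g * g = 1 ∧ g ∉ normalizer (M : Set G)}),
      (x : G) * g * y ≠ x' * u.1 := by
    intro x y x' u e
    apply hc (y * ((x' : G)⁻¹ * x)) (mul_mem y.2 (mul_mem (inv_mem x'.2) x.2))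
    have e1 : (y : G) * ((x' : G)⁻¹ * x) * g = y * u.1 * (y : G)⁻¹ := by
      rw [show u.1 = (x' : G)⁻¹ * (x * g * y) by rw [e]; group]; group
    rw [e1]
    calc (y : G) * u.1 * (y : G)⁻¹ * (y * u.1 * (y : G)⁻¹) = y * (u.1 * u.1) * (y : G)⁻¹ := by
          group
      _ = 1 := by rw [u.2.1]; simp
  have hf : Function.Injective f := by
    rintro ⟨x, y | u⟩ ⟨x', y' | u'⟩ e
    · change (x : G) * g * y = x' * g * y' at e
      have e1 : g * (y * (y' : G)⁻¹) * g⁻¹ = (x : G)⁻¹ * x' := by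
        rw [show (x' : G) = x * g * y * (y' : G)⁻¹ * g⁻¹ by rw [e]; group]; group
      have e2 : (y : G) * (y' : G)⁻¹ = 1 := by
        by_contra h1
        exact hg (h.ti g _ (mul_mem y.2 (inv_mem y'.2)) h1 (e1 ▸ mul_mem (inv_mem x.2) x'.2))
      have e3 : y = y' := Subtype.ext (mul_inv_eq_one.1 e2)
      subst e3
      have e4 : x = x' := Subtype.ext (mul_right_cancel (mul_right_cancel e))
      rw [e4]
    · exact absurd e (key _ _ _ _)
    · exact absurd e.symm (key _ _ _ _)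
    · change (x : G) * u.1 = x' * u'.1 at e
      have e1 : u'.1 = (x' : G)⁻¹ * x * u.1 := by rw [mul_assoc, e]; group
      have e2 := h.uniq u.2.2 u.2.1 (mul_mem (inv_mem x'.2) x.2) (e1 ▸ u'.2.1)
      have e3 : x' = x := Subtype.ext (inv_mul_eq_one.1 e2)
      subst e3
      have e4 : u = u' := Subtype.ext (mul_left_cancel e)
      rw [e4]
  have h1 := Nat.card_le_card_of_injective f hf
  rw [Nat.card_prod, Nat.card_sum, ← h.card_inv_split, ← M.card_mul_index] at h1
  exact absurd (Nat.le_of_mul_le_mul_left h1 Nat.card_pos) (not_le.2 h.big)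

theorem exists_eq_mul_inv {g : G} (hg : g ∉ normalizer (M : Set G)) :
    ∃ x ∈ M, ∃ u, u * u = 1 ∧ u ∉ normalizer (M : Set G) ∧ g = x * u := by
  obtain ⟨x, hx, e⟩ := h.exists_inv hg
  exact ⟨x⁻¹, inv_mem hx, x * g, e, fun hm => hg ((mul_mem_cancel_left (le_normalizer hx)).1 hm),
    by group⟩

theorem exists_eq_inv_mul {g : G} (hg : g ∉ normalizer (M : Set G)) :
    ∃ x ∈ M, ∃ u, u * u = 1 ∧ u ∉ normalizer (M : Set G) ∧ g = u * x := by
  obtain ⟨x, hx, u, h1, h2, e⟩ := h.exists_eq_mul_inv (g := g⁻¹) (fun hm => hg (inv_mem_iff.1 hm))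
  refine ⟨x⁻¹, inv_mem hx, u, h1, h2, ?_⟩
  rw [← inv_inj, e, mul_inv_rev, inv_inv, inv_eq_of_mul_eq_one_right h1]

/-- an involution outside the normalizer centralizes an involution of the normalizer -/
theorem exists_comm {u : G} (hu : u ∉ normalizer (M : Set G)) (h2 : u * u = 1) :
    ∃ x ∈ M, x * z * u = u * (x * z) := by
  obtain ⟨x, hx, e⟩ := h.exists_inv (g := z * u) fun hm => hu ((mul_mem_cancel_left h.zN).1 hm)
  refine ⟨x, hx, ?_⟩
  have e1 := h.mul_z_sq hx
  rw [← mul_assoc x z u] at e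
  rw [eq_inv_of_mul_eq_one_right e, mul_inv_rev, inv_eq_of_mul_eq_one_right h2,
    inv_eq_of_mul_eq_one_right e1]

theorem exists_conj_comm {u : G} (hu : u ∉ normalizer (M : Set G)) (h2 : u * u = 1) :
    ∃ y ∈ M, y⁻¹ * u * y * z = z * (y⁻¹ * u * y) := by
  obtain ⟨x, hx, e⟩ := h.exists_comm hu h2
  obtain ⟨y, hy, e1⟩ := h.exists_eq_conj_z (mul_mem (le_normalizer hx) h.zN) (h.mul_z_sq hx)
    (h.mul_z_ne hx)
  rw [e1] at e
  refine ⟨y, hy, ?_⟩
  calc y⁻¹ * u * y * z = y⁻¹ * (u * (y * z * y⁻¹)) * y := by group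
    _ = _ := by rw [← e]; group

/-- `z` is central in the normalizer modulo `M` -/
theorem comm_mod {n x : G} (hn : n ∈ normalizer (M : Set G)) (hx : x ∈ M) :
    x * z * n * (x * z) * n⁻¹ ∈ M := by
  have h1 := h.mul_z_mem (u := n * (x * z) * n⁻¹)
    (mul_mem (mul_mem hn (mul_mem (le_normalizer hx) h.zN)) (inv_mem hn))
    (by
      calc n * (x * z) * n⁻¹ * (n * (x * z) * n⁻¹) = n * (x * z * (x * z)) * n⁻¹ := by group
        _ = 1 := by rw [h.mul_z_sq hx]; simp)
    (fun e => h.mul_z_ne hx (by simpa using e))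
  have h2 := mul_mem hx (conj_mem h.zN h1)
  rw [h.z_inv] at h2
  convert h2 using 1
  calc x * z * n * (x * z) * n⁻¹ = x * z * n * (x * z) * n⁻¹ * (z * z) := by rw [h.zz, mul_one]
    _ = _ := by group

theorem semireg_inv {u x : G} (hu : u ∉ normalizer (M : Set G)) (h2 : u * u = 1) (hx : x ∈ M)
    (hm : u * x * u ∈ normalizer (M : Set G)) : x = 1 := by
  obtain ⟨w, hw, e⟩ := h.exists_comm hu h2
  have hu' : u⁻¹ = u := inv_eq_of_mul_eq_one_right h2
  have e1 := h.inv_of_mem (mul_mem (le_normalizer hw) h.zN) (h.mul_z_sq hw) (h.mul_z_ne hw) hx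
  have e2 : w * z * (u * x * u) * (w * z) = (u * x * u)⁻¹ := by
    calc w * z * (u * x * u) * (w * z) = (w * z * u) * x * (u * (w * z)) := by group
      _ = u * (w * z * x * (w * z)) * u := by rw [e, ← e]; nth_rewrite 1 [e]; group
      _ = _ := by rw [e1, mul_inv_rev, mul_inv_rev, hu', mul_assoc]
  have h3 := h.comm_mod hm hw
  rw [e2] at h3
  have h4 : (u * x * u)⁻¹ ∈ M := h.mem_of_sq_mem h3 (by
    rw [orderOf_inv, show u * x * u = u * x * u⁻¹ by rw [hu'], orderOf_conj]
    exact h.odd_orderOf hx)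
  by_contra h1
  exact hu (h.ti u x hx h1 (by rw [hu']; exact inv_mem_iff.1 h4))

/-- `M` acts semiregularly on the other conjugates -/
theorem semireg {g x : G} (hg : g ∉ normalizer (M : Set G)) (hx : x ∈ M)
    (hm : g⁻¹ * x * g ∈ normalizer (M : Set G)) : x = 1 := by
  obtain ⟨y, hy, u, h1, h2, rfl⟩ := h.exists_eq_mul_inv hg
  have := h.semireg_inv h2 h1 (conj_mem' (le_normalizer hy) hx) (by
    convert hm using 1
    rw [mul_inv_rev, inv_eq_of_mul_eq_one_right h1]; group)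
  calc x = y * (y⁻¹ * x * y) * y⁻¹ := by group
    _ = 1 := by rw [this]; simp

/-- an involution outside `N` inverts `N ∩ N^u` -/
theorem inverts {u d : G} (hu : u ∉ normalizer (M : Set G)) (h2 : u * u = 1)
    (hd : d ∈ normalizer (M : Set G)) (hm : u * d * u ∈ normalizer (M : Set G)) :
    u * d * u = d⁻¹ := by
  obtain ⟨x, hx, e⟩ := h.exists_inv (g := d * u) fun hm => hu ((mul_mem_cancel_left hd).1 hm)
  have e1 : u * (x * d) * u = (x * d)⁻¹ := eq_inv_of_mul_eq_one_right (by rw [← e]; group)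
  have h3 : x = 1 := h.semireg_inv hu h2 hx (by
    have e2 : u * x * u = u * (x * d) * u * (u * d * u)⁻¹ := by
      rw [mul_inv_rev, mul_inv_rev, inv_eq_of_mul_eq_one_right h2]
      calc u * x * u = u * x * d * (u * u) * d⁻¹ * u := by rw [h2]; group
        _ = _ := by group
    rw [e2, e1]
    exact mul_mem (inv_mem (mul_mem (le_normalizer hx) hd)) (inv_mem hm))
  simpa [h3] using e1

/-- elements of `C(z)` outside `N` are involutions -/
theorem sq_of_comm {g : G} (hg : g ∉ normalizer (M : Set G)) (hc : g * z = z * g) :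
    g * g = 1 := by
  obtain ⟨x, hx, u, h1, h2, rfl⟩ := h.exists_eq_mul_inv hg
  have e1 : z * u * z = x * x * u := by
    calc z * u * z = x * (z * x * z) * (z * (z * z) * u * z) := by
          rw [h.z_conj hx, h.zz]; group
      _ = x * (z * x * (z * z) * (z * z) * u * z) := by group
      _ = x * (z * (x * u * z)) := by rw [h.zz]; group
      _ = x * ((z * z) * (x * u)) := by rw [hc]; group
      _ = _ := by rw [h.zz]; group
  have e2 := h.uniq h2 h1 (mul_mem hx hx) (by
    rw [← e1]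
    calc z * u * z * (z * u * z) = z * u * (z * z) * u * z := by group
      _ = z * (u * u) * z := by rw [h.zz]; group
      _ = 1 := by rw [h1, mul_one, h.zz])
  rw [h.sq_eq_one hx e2, one_mul, h1]

/-- elements of `C(z)` outside `N` invert `C_N(z)` -/
theorem inverts_K {t c : G} (ht : t ∉ normalizer (M : Set G)) (htz : t * z = z * t)
    (hc : c ∈ normalizer (M : Set G)) (hcz : c * z = z * c) : t * c * t = c⁻¹ := by
  have h1 := h.sq_of_comm ht htz
  have h2 := h.sq_of_comm (g := c * t) (fun hm => ht ((mul_mem_cancel_left hc).1 hm)) (by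
    rw [mul_assoc, htz, ← mul_assoc, hcz, mul_assoc])
  exact eq_inv_of_mul_eq_one_right (by rw [← h2]; group)

theorem exists_T : ∃ t : G, t ∉ normalizer (M : Set G) ∧ t * z = z * t := by
  obtain ⟨g, hg⟩ := h.exists_not_mem
  obtain ⟨x, hx, u, h1, h2, rfl⟩ := h.exists_eq_mul_inv hg
  obtain ⟨y, hy, e⟩ := h.exists_conj_comm h2 h1
  exact ⟨_, fun hm => h2 ((mul_mem_cancel_left (inv_mem (le_normalizer hy))).1
    ((mul_mem_cancel_right (le_normalizer hy)).1 hm)), e⟩

theorem eq_z_of_comm {c : G} (hc : c ∈ normalizer (M : Set G)) (hcz : c * z = z * c)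
    (h2 : c * c = 1) : c = 1 ∨ c = z := by
  by_cases h1 : c = 1
  · exact Or.inl h1
  right
  have := h.eq_one_of_comm_z (h.mul_z_mem hc h2 h1) (by rw [← mul_assoc, ← hcz])
  rw [eq_inv_of_mul_eq_one_left this, h.z_inv]

/-- the main dichotomy -/
theorem dich : (∀ c ∈ normalizer (M : Set G), c * z = z * c → c = 1 ∨ c = z) ∨
    ((∃ c ∈ normalizer (M : Set G), c * z = z * c ∧ c * c ≠ 1) ∧
      ∀ t t' : G, t ∉ normalizer (M : Set G) → t * z = z * t → t' ∉ normalizer (M : Set G) →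
        t' * z = z * t' → t * t' ∈ normalizer (M : Set G)) := by
  by_cases hc : ∃ c ∈ normalizer (M : Set G), c * z = z * c ∧ c * c ≠ 1
  · right
    refine ⟨hc, fun t t' h1 h2 h3 h4 => ?_⟩
    obtain ⟨c, hc1, hc2, hc3⟩ := hc
    by_contra h5
    have e1 := h.inverts_K h1 h2 (inv_mem hc1) (show Commute c z from hc2).inv_left
    have e2 := h.inverts_K h3 h4 hc1 hc2
    have h6 : t * t' * z = z * (t * t') := by rw [mul_assoc, h4, ← mul_assoc, h2, mul_assoc]
    have e3 := h.inverts_K h5 h6 hc1 hc2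
    have e4 := h.sq_of_comm h5 h6
    have e5 : t * t' = t' * t := by
      rw [eq_inv_of_mul_eq_one_right e4, mul_inv_rev,
        inv_eq_of_mul_eq_one_right (h.sq_of_comm h1 h2),
        inv_eq_of_mul_eq_one_right (h.sq_of_comm h3 h4)]
    apply hc3
    have : c⁻¹ = c := by
      calc c⁻¹ = t * t' * c * (t' * t) := by rw [← e3, ← e5]
        _ = t * (t' * c * t') * t := by group
        _ = c := by rw [e2, e1, inv_inv]
    exact eq_inv_iff_mul_eq_one.1 this.symm
  · left
    push Not at hc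
    exact fun c h1 h2 => h.eq_z_of_comm h1 h2 (hc c h1 h2)

/-- counting: `|G| = |N| + |M| · #(involutions outside N)` -/
theorem card_eq : Nat.card G = Nat.card (normalizer (M : Set G)) +
    Nat.card M * Nat.card {g : G // g * g = 1 ∧ g ∉ normalizer (M : Set G)} := by
  rw [← Nat.card_prod, ← Nat.card_sum]
  symm
  refine Nat.card_congr (Equiv.ofBijective (fun p => match p with
    | Sum.inl n => (n : G)
    | Sum.inr (x, u) => x * u.1) ⟨?_, ?_⟩)
  · rintro (n | ⟨x, u⟩) (n' | ⟨x', u'⟩) e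
    · exact congrArg Sum.inl (Subtype.ext e)
    · change (n : G) = x' * u'.1 at e
      exact absurd ((mul_mem_cancel_left (le_normalizer x'.2)).1 (e ▸ n.2)) u'.2.2
    · change x * u.1 = (n' : G) at e
      exact absurd ((mul_mem_cancel_left (le_normalizer x.2)).1 (e ▸ n'.2)) u.2.2
    · change (x : G) * u.1 = x' * u'.1 at e
      have e1 : u'.1 = (x' : G)⁻¹ * x * u.1 := by rw [mul_assoc, e]; group
      have e2 := h.uniq u.2.2 u.2.1 (mul_mem (inv_mem x'.2) x.2) (e1 ▸ u'.2.1)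
      have e3 : x' = x := Subtype.ext (inv_mul_eq_one.1 e2)
      subst e3
      have e4 : u = u' := Subtype.ext (mul_left_cancel e)
      rw [e4]
  · intro g
    by_cases hg : g ∈ normalizer (M : Set G)
    · exact ⟨Sum.inl ⟨g, hg⟩, rfl⟩
    · obtain ⟨x, hx, u, h1, h2, rfl⟩ := h.exists_eq_mul_inv hg
      exact ⟨Sum.inr (⟨x, hx⟩, ⟨u, h1, h2⟩), rfl⟩

/-- counting: involutions outside `N` are `M`-conjugates of elements of `C(z)` -/
theorem card_out : Nat.card {g : G // g * g = 1 ∧ g ∉ normalizer (M : Set G)} =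
    Nat.card M * Nat.card {t : G // t ∉ normalizer (M : Set G) ∧ t * z = z * t} := by
  rw [← Nat.card_prod]
  symm
  refine Nat.card_congr (Equiv.ofBijective (fun p => ⟨p.1 * p.2.1 * (p.1 : G)⁻¹, by
    calc p.1 * p.2.1 * (p.1 : G)⁻¹ * (p.1 * p.2.1 * (p.1 : G)⁻¹) =
          p.1 * (p.2.1 * p.2.1) * (p.1 : G)⁻¹ := by group
      _ = 1 := by rw [h.sq_of_comm p.2.2.1 p.2.2.2]; simp,
    fun hm => p.2.2.1 ((mul_mem_cancel_left (le_normalizer p.1.2)).1
      ((mul_mem_cancel_right (inv_mem (le_normalizer p.1.2))).1 hm))⟩) ⟨?_, ?_⟩)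
  · rintro ⟨x, t⟩ ⟨x', t'⟩ e
    have e' : x * t.1 * (x : G)⁻¹ = x' * t'.1 * (x' : G)⁻¹ := congrArg Subtype.val e
    obtain ⟨y, hy⟩ : ∃ y : G, y = (x' : G)⁻¹ * x := ⟨_, rfl⟩
    have hyM : y ∈ M := hy ▸ mul_mem (inv_mem x'.2) x.2
    have e1 : t'.1 = y * t.1 * y⁻¹ := by
      rw [hy, show t'.1 = (x' : G)⁻¹ * (x * t.1 * (x : G)⁻¹) * x' by rw [e']; group]; group
    have e2 := t'.2.2
    rw [e1] at e2
    have e3 : t.1 * (y * y) = y * y * t.1 := by
      have e4 : y⁻¹ * z = z * y := (h.z_mul hyM).symm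
      apply mul_left_cancel (a := y * z)
      calc y * z * (t.1 * (y * y)) = y * (z * t.1) * (y * y) := by group
        _ = y * t.1 * (z * y) * y := by rw [← t.2.2]; group
        _ = (y * t.1 * y⁻¹ * z) * y := by rw [← e4]; group
        _ = z * y * t.1 := by rw [e2]; group
        _ = y * (y⁻¹ * z) * y * t.1 := by group
        _ = _ := by rw [e4]; group
    have e5 : y * y = 1 := by
      by_contra h1
      exact t.2.1 (h.odd _ (mul_mem hyM hyM) h1 _ e3 (h.sq_of_comm t.2.1 t.2.2) ▸ one_mem _)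
    have e6 := h.sq_eq_one hyM e5
    rw [e6] at e1 hy
    exact Prod.ext (Subtype.ext (inv_mul_eq_one.1 hy.symm).symm) (Subtype.ext (by simpa using e1.symm))
  · rintro ⟨u, h1, h2⟩
    obtain ⟨y, hy, e⟩ := h.exists_conj_comm h2 h1
    refine ⟨(⟨y, hy⟩, ⟨_, fun hm => h2 ((mul_mem_cancel_left (inv_mem (le_normalizer hy))).1
      ((mul_mem_cancel_right (le_normalizer hy)).1 hm)), e⟩), Subtype.ext ?_⟩
    change y * (y⁻¹ * u * y) * y⁻¹ = u
    group

end Hyp

end Cfsg.Agent.RankOne.BTI
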