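import Mathlib
import Cfsg.Prelude.Def_Transfer
import Cfsg.Agent.RankOne.BenderTIA
import Cfsg.Agent.Perm.ZassPSL
import Cfsg.Agent.Class.PGL2Subfield

/-! Bender's theorem on TI-subgroups inverted by an involution: the Zassenhaus case. -/

set_option autoImplicit false
set_option linter.unusedSectionVars false

namespace Cfsg.Agent.RankOne.BTI

open Subgroup MulAction MatrixGroups Cfsg Cfsg.Agent.Inv Cfsg.Agent.Perm

variable {G : Type*} [Group G]

section Zass

variable {Ω : Type*} [MulAction G Ω]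

/-- A Zassenhaus group whose two-point stabilizer has even order and is inverted by a swap. -/
theorem zass_pgl_or_psl (hZ : IsZassenhausGroup G Ω) [Finite Ω] {a b : Ω} (hab : a ≠ b)
    (heven : Even (Nat.card ↥(stabilizer G a ⊓ stabilizer G b))) {w : G} (hw : w * w = 1)
    (hwa : w • a = b) (hinv : ∀ k ∈ stabilizer G a ⊓ stabilizer G b, w * k * w⁻¹ = k⁻¹)
    {U : Subgroup G} (hU : Zass.IsKer a U) :
    ∃ (F : Type) (_ : Field F) (_ : Fintype F) (p : ℕ) (_ : Fact p.Prime) (_ : CharP F p),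
      Fintype.card F = Nat.card U ∧ IsElementaryAbelian p U ∧
      (Nonempty (G ≃* PGL(2, F)) ∨ (Fintype.card F % 4 = 1 ∧ Nonempty (G ≃* PSL(2, F)))) := by
  have := Zass.finite_of_finite hZ
  have := hZ.1
  have h1 := Zass.card_sub_two_le_of_even hZ hab heven
  obtain ⟨F, _, _, C, χ, h0, hχ, hact⟩ := ZassPSL.exists_coord hZ hab _ le_rfl
    (ZassPSL.comm_of_inverted hinv) h1
  have hc := C.card_eq
  have hUc := hU.card hZ
  have h4 := Zass.four_le_card hZ
  obtain ⟨p, hp⟩ := CharP.exists F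
  have hpp : Fact p.Prime := ⟨CharP.char_is_prime F p⟩
  have hτ : ∀ u ∈ U, ∃ s, u = C.τ s := by
    intro u hu
    obtain ⟨s, hs⟩ := C.surj (u • C.ψ 0)
      (fun e => C.ne 0 (smul_left_cancel u (e.trans (hU.le hu).symm)))
    have hs' : C.τ s ∈ U := by
      by_cases h5 : s = 0
      · rw [Zass.eq_one_of_forall hZ (g := C.τ s) fun c => by
          rcases C.eq_or c with rfl | ⟨t, rfl⟩
          · exact C.τ_a s
          · rw [C.τ_ψ, h5, zero_add]]
        exact one_mem _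
      · refine hU.mem_of (C.τ_a s) fun c e => ?_
        rcases C.eq_or c with rfl | ⟨t, rfl⟩
        · rfl
        · rw [C.τ_ψ] at e
          exact absurd (add_eq_right.1 (C.inj e)) h5
    refine ⟨s, (inv_mul_eq_one.1 (hU.eq_one (mul_mem (inv_mem hs') hu) (C.ne 0) ?_)).symm⟩
    rw [mul_smul, ← hs, inv_smul_eq_iff, C.τ_ψ, add_zero]
  have hpow : ∀ (s : F) (n : ℕ) (t : F), C.τ s ^ n • C.ψ t = C.ψ (n * s + t) := by
    intro s n t
    induction n with
    | zero => simp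
    | succ n ih => rw [pow_succ', mul_smul, ih, C.τ_ψ]; congr 1; push_cast; ring
  refine ⟨F, inferInstance, inferInstance, p, hpp, hp, ?_, ⟨⟨⟨fun x y => Subtype.ext ?_⟩⟩, ?_⟩, ?_⟩
  · rw [← Nat.card_eq_fintype_card]; omega
  · exact hU.comm_of_le hZ hab h1 _ x.2 _ y.2
  · intro u hu
    obtain ⟨s, rfl⟩ := hτ u hu
    refine hU.eq_one (pow_mem hu p) (C.ne 0) ?_
    rw [hpow, CharP.cast_eq_zero, zero_mul, zero_add]
  obtain ⟨m, hm⟩ := Zass.card_two_dvd hZ hab
  have h2 : m ≤ 2 := by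
    refine Nat.le_of_mul_le_mul_left ?_ (lt_of_lt_of_le two_pos (Zass.two_le_card_two hZ hab))
    omega
  interval_cases m
  · omega
  · left
    have hbij : Function.Bijective χ := hχ.bijective_of_nat_card_le (by
      rw [Nat.card_units]; omega)
    have hw0 : w • C.ψ 0 = a := by rw [h0, ← hwa, smul_smul, hw, one_smul]
    obtain ⟨α, hα⟩ := C.surj (w • C.ψ 1)
      (fun e => one_ne_zero (C.inj (smul_left_cancel w (e.trans hw0.symm))))
    have hα0 : α ≠ 0 := by
      rintro rfl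
      exact C.ne 1 (smul_left_cancel w (hα.symm.trans (h0.trans hwa.symm)))
    obtain ⟨j, hj⟩ := C.exists_pgl_hom hα0 (h0 ▸ hwa) hw0 (fun t ht => by
      obtain ⟨k, hk⟩ := hbij.2 (Units.mk0 t ht)
      have e1 : C.ψ t = (k : G) • C.ψ 1 := by rw [hact, hk]; simp
      rw [e1, smul_smul, mul_inv_eq_iff_eq_mul.1 (hinv k k.2), mul_smul, ← hα, inv_smul_eq_iff,
        hact, hk]
      congr 1
      simp only [Units.val_mk0]
      field_simp) (fun g hg hg0 => ⟨χ ⟨g, hg, h0 ▸ hg0⟩, hact ⟨g, hg, h0 ▸ hg0⟩⟩)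
    refine ⟨MulEquiv.ofBijective j (hj.bijective_of_nat_card_le ?_)⟩
    rw [mul_one] at hm
    rw [Zass.card_eq hZ hab, Class.Dickson.card_PGL2, ← hm, hc, Nat.add_sub_cancel]
    obtain ⟨n, hn⟩ : ∃ n, Nat.card F = n + 1 := ⟨_, (Nat.succ_pred_eq_of_pos Nat.card_pos).symm⟩
    rw [hn, show (n + 1) ^ 2 - 1 = n * (n + 2) from Nat.sub_eq_of_eq_add (by ring),
      show n + 1 + 1 - 2 = n by omega]
    apply le_of_eq
    ring
  · right
    obtain ⟨F', _, _, h5, e⟩ := ZassPSL.psl_of_even hZ hab heven (by omega)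
    refine ⟨?_, ZassPSL.psl_transport (by omega) e⟩
    obtain ⟨k, hk⟩ := heven
    rw [← Nat.card_eq_fintype_card]
    omega

theorem no_regular (h : ∀ R : Subgroup G, R.Normal → (∀ a b : Ω, ∃ r ∈ R, r • a = b) →
    (∀ r ∈ R, ∀ a : Ω, r • a = a → r = 1) → False) :
    ∀ R : Subgroup G, R.Normal → IsPretransitive R Ω → ∃ a : Ω, stabilizer R a ≠ ⊥ := by
  intro R hR hRt
  by_contra hc
  push Not at hc
  refine h R hR (fun a b => ?_) fun r hr a e => ?_
  · obtain ⟨r, e⟩ := MulAction.exists_smul_eq R a b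
    exact ⟨r, r.2, e⟩
  · have : (⟨r, hr⟩ : R) ∈ stabilizer R a := e
    rw [hc a] at this
    exact congrArg Subtype.val (mem_bot.1 this)

end Zass

theorem smul_mk_eq {N : Subgroup G} {d g g' : G} :
    d • (g : G ⧸ N) = (g' : G ⧸ N) ↔ (d * g)⁻¹ * g' ∈ N := by
  rw [← QuotientGroup.eq]; rfl

theorem smul_mk_self {N : Subgroup G} {d g : G} :
    d • (g : G ⧸ N) = (g : G ⧸ N) ↔ g⁻¹ * d * g ∈ N := by
  rw [smul_mk_eq, ← inv_mem_iff]
  simp [mul_assoc]

theorem smul_one_self {N : Subgroup G} {d : G} :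
    d • ((1 : G) : G ⧸ N) = ((1 : G) : G ⧸ N) ↔ d ∈ N := by
  rw [smul_mk_self, inv_one, one_mul, mul_one]

variable [Finite G] {M : Subgroup G} {z : G}

namespace Hyp

variable (h : Hyp M z)
include h

theorem inverts_pt {a : G ⧸ normalizer (M : Set G)} {u d : G} (h2 : u * u = 1) (hu : u • a ≠ a)
    (hd : d • a = a) (hd' : d • u • a = u • a) : u * d * u = d⁻¹ := by
  induction a using QuotientGroup.induction_on with | H g => ?_
  have hu' := inv_eq_of_mul_eq_one_right h2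
  have e := h.inverts (u := g⁻¹ * u * g) (d := g⁻¹ * d * g) (mt smul_mk_self.2 hu)
    (by
      calc g⁻¹ * u * g * (g⁻¹ * u * g) = g⁻¹ * (u * u) * g := by group
        _ = 1 := by rw [h2]; simp) (smul_mk_self.1 hd) (by
      have := smul_mk_self.1 (show d • ((u * g : G) : G ⧸ normalizer (M : Set G)) = _ from hd')
      convert this using 1
      rw [mul_inv_rev, hu']; group)
  calc u * d * u = g * (g⁻¹ * u * g * (g⁻¹ * d * g) * (g⁻¹ * u * g)) * g⁻¹ := by group
    _ = d⁻¹ := by rw [e]; group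

theorem exists_swap {a b : G ⧸ normalizer (M : Set G)} (hab : a ≠ b) :
    ∃ u : G, u * u = 1 ∧ u • a = b := by
  induction a using QuotientGroup.induction_on with | H g => ?_
  induction b using QuotientGroup.induction_on with | H g' => ?_
  obtain ⟨x, hx, u, h1, h2, e⟩ := h.exists_eq_inv_mul (g := g⁻¹ * g') (mt QuotientGroup.eq.2 hab)
  refine ⟨g * u * g⁻¹, ?_, smul_mk_eq.2 ?_⟩
  · calc g * u * g⁻¹ * (g * u * g⁻¹) = g * (u * u) * g⁻¹ := by group
      _ = 1 := by rw [h1]; simp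
  · rw [show (g * u * g⁻¹ * g)⁻¹ * g' = u⁻¹ * (g⁻¹ * g') by group, e, inv_mul_cancel_left]
    exact le_normalizer hx

theorem exists_central {a b : G ⧸ normalizer (M : Set G)} (hab : a ≠ b) :
    ∃ w : G, orderOf w = 2 ∧ w • a = a ∧ w • b = b ∧
      ∀ d : G, d • a = a → d • b = b → d * w = w * d := by
  obtain ⟨u, h2, rfl⟩ := h.exists_swap hab
  have hu' := inv_eq_of_mul_eq_one_right h2
  have hc := ZassPSL.comm_of_inverted (K := stabilizer G a ⊓ stabilizer G (u • a)) (w := u)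
    fun k hk => by rw [hu']; exact h.inverts_pt h2 hab.symm hk.1 hk.2
  suffices ∃ w : G, orderOf w = 2 ∧ w • a = a ∧ w • u • a = u • a by
    obtain ⟨w, h1, h3, h4⟩ := this
    exact ⟨w, h1, h3, h4, fun d h5 h6 => hc d ⟨h5, h6⟩ w ⟨h3, h4⟩⟩
  induction a using QuotientGroup.induction_on with | H g => ?_
  obtain ⟨x, hx, e⟩ := h.exists_comm (u := g⁻¹ * u * g) (mt smul_mk_self.2 hab.symm) (by
    calc g⁻¹ * u * g * (g⁻¹ * u * g) = g⁻¹ * (u * u) * g := by group
      _ = 1 := by rw [h2]; simp)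
  have h3 : (g * (x * z) * g⁻¹) • (g : G ⧸ normalizer (M : Set G)) = g := smul_mk_self.2 (by
    simpa [mul_assoc] using mul_mem (le_normalizer hx) h.zN)
  refine ⟨g * (x * z) * g⁻¹, ?_, h3, ?_⟩
  · rw [orderOf_conj]
    exact orderOf_two_of_mul_self (h.mul_z_sq hx) (h.mul_z_ne hx)
  · have : g * (x * z) * g⁻¹ * u = u * (g * (x * z) * g⁻¹) := by
      calc g * (x * z) * g⁻¹ * u = g * (x * z * (g⁻¹ * u * g)) * g⁻¹ := by group
        _ = _ := by rw [e]; group
    rw [smul_smul, this, mul_smul, h3]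

theorem eq_one_of_fix {x : G} (hx : x ∈ M) {b : G ⧸ normalizer (M : Set G)}
    (hb : b ≠ ((1 : G) : G ⧸ normalizer (M : Set G))) (e : x • b = b) : x = 1 := by
  induction b using QuotientGroup.induction_on with | H g => ?_
  exact h.semireg (fun hm => hb (QuotientGroup.eq.2 (by simpa using hm))) hx (smul_mk_self.1 e)

section One

variable (h1 : ∀ t t' : G, t ∉ normalizer (M : Set G) → t * z = z * t →
  t' ∉ normalizer (M : Set G) → t' * z = z * t' → t * t' ∈ normalizer (M : Set G))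
include h1

theorem T_eq {t t' : G} (h2 : t ∉ normalizer (M : Set G)) (h3 : t * z = z * t)
    (h4 : t' ∉ normalizer (M : Set G)) (h5 : t' * z = z * t') :
    (t : G ⧸ normalizer (M : Set G)) = t' := by
  rw [QuotientGroup.eq, inv_eq_of_mul_eq_one_right (h.sq_of_comm h2 h3)]
  exact h1 t t' h2 h3 h4 h5

theorem z_fix {b c : G ⧸ normalizer (M : Set G)} (hb : ((1 : G) : G ⧸ normalizer (M : Set G)) ≠ b)
    (hc : ((1 : G) : G ⧸ normalizer (M : Set G)) ≠ c) (hb' : z • b = b) (hc' : z • c = c) :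
    b = c := by
  have key : ∀ b : G ⧸ normalizer (M : Set G), ((1 : G) : G ⧸ normalizer (M : Set G)) ≠ b →
      z • b = b → ∃ t : G, t ∉ normalizer (M : Set G) ∧ t * z = z * t ∧ b = t := by
    intro b hb hb'
    obtain ⟨u, h2, rfl⟩ := h.exists_swap hb
    have e := h.inverts_pt h2 hb.symm (smul_one_self.2 h.zN) hb'
    refine ⟨u, mt smul_one_self.2 hb.symm, ?_, ?_⟩
    · rw [h.z_inv] at e
      calc u * z = u * z * (u * u) := by rw [h2, mul_one]
        _ = _ := by rw [← mul_assoc, e]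
    · change ((u * 1 : G) : G ⧸ normalizer (M : Set G)) = u
      rw [mul_one]
  obtain ⟨t, h2, h3, rfl⟩ := key b hb hb'
  obtain ⟨t', h4, h5, rfl⟩ := key c hc hc'
  exact h.T_eq h1 h2 h3 h4 h5

theorem inv_fix_three {w : G} (hw : w * w = 1) {a b c : G ⧸ normalizer (M : Set G)} (hab : a ≠ b)
    (hbc : b ≠ c) (hac : a ≠ c) (ha : w • a = a) (hb : w • b = b) (hc : w • c = c) : w = 1 := by
  induction a using QuotientGroup.induction_on with | H g => ?_
  by_contra hw1
  obtain ⟨y, hy, e⟩ := h.exists_eq_conj_z (smul_mk_self.1 ha) (by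
    calc g⁻¹ * w * g * (g⁻¹ * w * g) = g⁻¹ * (w * w) * g := by group
      _ = 1 := by rw [hw]; simp) (fun e => hw1 (by
    calc w = g * (g⁻¹ * w * g) * g⁻¹ := by group
      _ = 1 := by rw [e]; simp))
  have e1 : z = (g * y)⁻¹ * w * (g * y) := by
    calc z = y⁻¹ * (y * z * y⁻¹) * y := by group
      _ = _ := by rw [← e]; group
  have e2 : ((1 : G) : G ⧸ normalizer (M : Set G)) =
      (g * y)⁻¹ • (g : G ⧸ normalizer (M : Set G)) :=
    (smul_mk_eq.2 (by simpa [mul_assoc] using le_normalizer hy)).symm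
  refine hbc (smul_left_cancel (g * y)⁻¹ (h.z_fix h1 ?_ ?_ ?_ ?_))
  · rw [e2]; exact fun e => hab (smul_left_cancel _ e)
  · rw [e2]; exact fun e => hac (smul_left_cancel _ e)
  · rw [e1, mul_smul, mul_smul, smul_inv_smul, hb]
  · rw [e1, mul_smul, mul_smul, smul_inv_smul, hc]

theorem fix_three {y : G} {a b c : G ⧸ normalizer (M : Set G)} (hab : a ≠ b)
    (hbc : b ≠ c) (hac : a ≠ c) (ha : y • a = a) (hb : y • b = b) (hc : y • c = c) : y = 1 := by
  obtain ⟨w, h2, h3, h4, h5⟩ := h.exists_central hbc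
  have hw := mul_self_of_orderOf_two h2
  have h6 : w • a ≠ a := fun e =>
    ne_one_of_orderOf_two h2 (h.inv_fix_three h1 hw hab hbc hac e h3 h4)
  have h7 := h5 y hb hc
  have h8 := h.inverts_pt hw h6 ha (by rw [smul_smul, h7, mul_smul, ha])
  rw [← h7, mul_assoc, hw, mul_one] at h8
  exact h.inv_fix_three h1 (eq_inv_iff_mul_eq_one.1 h8) hab hbc hac ha hb hc

theorem exists_smul_T {t : G} (h2 : t ∉ normalizer (M : Set G)) (h3 : t * z = z * t)
    {b : G ⧸ normalizer (M : Set G)} (hb : b ≠ ((1 : G) : G ⧸ normalizer (M : Set G))) :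
    ∃ y ∈ M, y • (t : G ⧸ normalizer (M : Set G)) = b := by
  obtain ⟨u, h4, rfl⟩ := h.exists_swap hb.symm
  have h5 : u ∉ normalizer (M : Set G) := mt smul_one_self.2 hb
  obtain ⟨y, hy, e⟩ := h.exists_conj_comm h5 h4
  refine ⟨y, hy, ?_⟩
  rw [h.T_eq h1 h2 h3 (fun hm => h5 ((mul_mem_cancel_left (inv_mem (le_normalizer hy))).1
    ((mul_mem_cancel_right (le_normalizer hy)).1 hm))) e]
  exact smul_mk_eq.2 (by simpa [mul_assoc] using le_normalizer hy)

theorem exists_smul_M {b c : G ⧸ normalizer (M : Set G)}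
    (hb : b ≠ ((1 : G) : G ⧸ normalizer (M : Set G)))
    (hc : c ≠ ((1 : G) : G ⧸ normalizer (M : Set G))) : ∃ y ∈ M, y • b = c := by
  obtain ⟨t, h2, h3⟩ := h.exists_T
  obtain ⟨y, hy, rfl⟩ := h.exists_smul_T h1 h2 h3 hb
  obtain ⟨y', hy', rfl⟩ := h.exists_smul_T h1 h2 h3 hc
  exact ⟨y' * y⁻¹, mul_mem hy' (inv_mem hy), by rw [mul_smul, inv_smul_smul]⟩

theorem isZass (hK : ∃ c ∈ normalizer (M : Set G), c * z = z * c ∧ c * c ≠ 1) :
    IsZassenhausGroup G (G ⧸ normalizer (M : Set G)) := by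
  obtain ⟨t, h2, h3⟩ := h.exists_T
  have ht : (t : G ⧸ normalizer (M : Set G)) ≠ ((1 : G) : G ⧸ normalizer (M : Set G)) :=
    fun e => h2 (by simpa using QuotientGroup.eq.1 e)
  refine ⟨⟨fun {g g'} e => ?_⟩, is_two_pretransitive_iff.2 fun {a b c d} hab hcd => ?_,
    fun g a b c => h.fix_three h1, ?_, no_regular fun R hR hRt hreg => ?_⟩
  · obtain ⟨x, hx, hx1⟩ := h.exists_ne
    have e' : ∀ a : G ⧸ normalizer (M : Set G), (g'⁻¹ * g) • a = a := fun a => by
      rw [mul_smul, e, inv_smul_smul]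
    refine (inv_mul_eq_one.1 (h.fix_three h1 ht.symm (c := x • (t : G ⧸ normalizer (M : Set G)))
      (fun e => hx1 (h.eq_one_of_fix hx ht e.symm)) (fun e => ht ?_) (e' _) (e' _) (e' _))).symm
    exact smul_left_cancel x (e.symm.trans (smul_one_self.2 (le_normalizer hx)).symm)
  · obtain ⟨g, rfl⟩ := MulAction.exists_smul_eq G ((1 : G) : G ⧸ normalizer (M : Set G)) a
    obtain ⟨g', rfl⟩ := MulAction.exists_smul_eq G ((1 : G) : G ⧸ normalizer (M : Set G)) c
    obtain ⟨y, hy, e⟩ := h.exists_smul_M h1 (b := g⁻¹ • b) (c := g'⁻¹ • d)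
      (fun e => hab (inv_smul_eq_iff.1 e).symm) (fun e => hcd (inv_smul_eq_iff.1 e).symm)
    refine ⟨g' * y * g⁻¹, ?_, ?_⟩
    · rw [mul_smul, mul_smul, inv_smul_smul, smul_one_self.2 (le_normalizer hy)]
    · rw [mul_smul, mul_smul, e, smul_inv_smul]
  · obtain ⟨w, h4, h5, h6, -⟩ := h.exists_central ht
    exact ⟨w, ne_one_of_orderOf_two h4, _, _, ht, h5, h6⟩
  · obtain ⟨c, hc1, hc2, hc3⟩ := hK
    obtain ⟨r, hr, e⟩ := hRt ((1 : G) : G ⧸ normalizer (M : Set G))
      (t : G ⧸ normalizer (M : Set G))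
    have hct := h.inverts_K h2 h3 hc1 hc2
    have htt := h.sq_of_comm h2 h3
    have hfix : ∀ d ∈ normalizer (M : Set G), d * z = z * d → r * d = d * r := by
      intro d hd1 hd2
      have hd : d • (t : G ⧸ normalizer (M : Set G)) = t := smul_mk_self.2 (by
        rw [inv_eq_of_mul_eq_one_right htt, h.inverts_K h2 h3 hd1 hd2]; exact inv_mem hd1)
      have := hreg (r⁻¹ * (d * r * d⁻¹)) (mul_mem (inv_mem hr) (hR.conj_mem r hr d))
        ((1 : G) : G ⧸ normalizer (M : Set G)) (by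
          rw [mul_smul, mul_smul, mul_smul, smul_one_self.2 (inv_mem hd1), e, hd, ← e,
            inv_smul_smul])
      rw [inv_mul_eq_one] at this
      exact (mul_inv_eq_iff_eq_mul.1 this.symm).symm
    have hrN : r ∉ normalizer (M : Set G) := fun hm => ht (e.symm.trans (smul_one_self.2 hm))
    have hrz := hfix z h.zN rfl
    have h4 := h.inverts_K hrN hrz hc1 hc2
    rw [hfix c hc1 hc2, mul_assoc, h.sq_of_comm hrN hrz, mul_one] at h4
    exact hc3 (eq_inv_iff_mul_eq_one.1 h4)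

theorem caseB (hK : ∃ c ∈ normalizer (M : Set G), c * z = z * c ∧ c * c ≠ 1) :
    ∃ (F : Type) (_ : Field F) (_ : Fintype F) (p : ℕ) (_ : Fact p.Prime) (_ : CharP F p),
      Fintype.card F = Nat.card M ∧ IsElementaryAbelian p M ∧
      (Nonempty (G ≃* PGL(2, F)) ∨ (Fintype.card F % 4 = 1 ∧ Nonempty (G ≃* PSL(2, F)))) := by
  have hZ := h.isZass h1 hK
  obtain ⟨b, hb⟩ := Zass.exists_ne hZ ((1 : G) : G ⧸ normalizer (M : Set G))
  obtain ⟨w, h2, h3, h4, -⟩ := h.exists_central hb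
  obtain ⟨u, h5, rfl⟩ := h.exists_swap hb
  refine zass_pgl_or_psl hZ hb (even_card_of_involution (t := w) ⟨h3, h4⟩ h2) h5 rfl
    (fun k hk => ?_) (Zass.isKer_of_regular hZ (fun x hx => smul_one_self.2 (le_normalizer hx))
      fun y c hy hc => ?_)
  · rw [inv_eq_of_mul_eq_one_right h5]
    exact h.inverts_pt h5 hb.symm hk.1 hk.2
  · obtain ⟨x, hx, e⟩ := h.exists_smul_M h1 hy hc
    refine ⟨⟨x, hx⟩, e, fun x' e' => Subtype.ext ?_⟩
    refine (inv_mul_eq_one.1 (h.eq_one_of_fix (mul_mem (inv_mem hx) x'.2) hy ?_)).symm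
    rw [mul_smul, e', ← e, inv_smul_smul]

end One

end Hyp

end Cfsg.Agent.RankOne.BTI
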